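import Cfsg.Agent.FS.Sw.Bits

/-!
# The certificate checker of part B (project FS): definitions

Elements of the group are the numbers below `2 ^ n ≤ 512`; vectors indexed by the elements are packed with 16 bits per entry.
The lowest 32 bits of the codes of subgroups, maps and automorphisms are ignored (they spread the hash values).
-/

set_option autoImplicit false

namespace Cfsg.Agent.FS.NB

open Cfsg.Agent.FS.Pc Cfsg.Agent.FS.Sw

/-- byte `i` -/
def lk (V i : ℕ) : ℕ := Nat.land (Nat.shiftRight V (Nat.shiftLeft i 4)) 65535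

/-- `v` at byte `i` -/
def pt (v i : ℕ) : ℕ := Nat.shiftLeft v (Nat.shiftLeft i 4)

/-- drops the lowest 32 bits -/
def sl (a : ℕ) : ℕ := Nat.shiftRight a 32

def nz (a : ℕ) : Bool := Nat.ble 1 a

noncomputable def iF {α : Type} (b : Bool) (t e : α) : α := Bool.rec e t b

noncomputable def an (a b : Bool) : Bool := Bool.rec false b a

noncomputable def orr (a b : Bool) : Bool := Bool.rec b true a

noncomputable def ne (a b : ℕ) : Bool := Bool.rec true false (Nat.beq a b)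

noncomputable def nt (a : Bool) : Bool := Bool.rec true false a

/-- number of bytes -/
def len1 (w : ℕ) : ℕ := Nat.succ (Nat.shiftRight (Nat.log2 w) 4)

/-- number of pairs of bytes -/
def len2 (w : ℕ) : ℕ := Nat.succ (Nat.shiftRight (Nat.log2 w) 5)

noncomputable def allN (n : ℕ) (p : ℕ → Bool) : Bool := Nat.rec true (fun i ih => an (p i) ih) n

noncomputable def foN (n : ℕ) (φ : ℕ → ℕ) : ℕ := Nat.rec 0 (fun i ih => Nat.lor (φ i) ih) n

noncomputable def itr (q : ℕ → ℕ) (u a : ℕ) : ℕ := Nat.rec a (fun _ r => q r) u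

noncomputable def nth {α : Type} (d : α) (L : List α) : ℕ → α :=
  List.rec (fun _ => d) (fun a _ ih i => Nat.rec a (fun j _ => ih j) i) L

noncomputable def allL {α : Type} (L : List α) (p : α → Bool) : Bool := List.rec true (fun a _ ih => an (p a) ih) L

noncomputable def exL {α : Type} (L : List α) (p : α → Bool) : Bool := List.rec false (fun a _ ih => orr (p a) ih) L

noncomputable def cnN (n : ℕ) (p : ℕ → Bool) : ℕ := Nat.rec 0 (fun i r => iF (p i) (Nat.succ r) r) n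

/-- lists of pairs -/
inductive PL
  | nil
  | cons (a b : ℕ) (l : PL)

noncomputable def allP (l : PL) (p : ℕ → ℕ → Bool) : Bool := PL.rec true (fun a b _ ih => an (p a b) ih) l

noncomputable def foP (l : PL) (φ : ℕ → ℕ → ℕ) : ℕ := PL.rec 0 (fun a b _ ih => Nat.lor (φ a b) ih) l

/-- partial maps: generators, graph, table, inverse table -/
structure PM where
  gs : PL
  el : PL
  tab : ℕ
  itab : ℕ

def s0 : PM := ⟨.nil, .cons 0 0 .nil, 0, 0⟩

noncomputable def mem (s : PM) (a : ℕ) : Bool := orr (nz (lk s.tab a)) (Nat.beq a 0)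

/-- the generators of `X` go into a member of the list -/
noncomputable def inC (cl : List PM) (X : PM) (p : PM → ℕ → Bool) : Bool := exL cl fun Y => allP X.gs fun a _ => p Y a

/-- the tables of the group -/
structure Gp where
  n : ℕ
  N : ℕ
  mk' : ℕ
  R : ℕ
  r : ℕ → ℕ
  c : ℕ → ℕ
  iv : ℕ
  sq : ℕ
  id : ℕ
  O : ℕ
  L : ℕ

namespace Gp

variable (g : Gp)

/-- byte `i`, reduced to an element -/
def by' (w i : ℕ) : ℕ := Nat.land (Nat.shiftRight w (Nat.shiftLeft i 4)) g.mk'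

def m (a b : ℕ) : ℕ := lk (g.r a) b

def i (a : ℕ) : ℕ := lk g.iv a

def q (a : ℕ) : ℕ := lk g.sq a

def cj (s x : ℕ) : ℕ := lk (g.c (lk g.iv s)) (lk (g.r s) x)

noncomputable def cj0 (s x : ℕ) : ℕ := iF (nz s) (g.cj s x) x

/-- `a b a⁻¹ b⁻¹` -/
def cm (a b : ℕ) : ℕ := lk (g.c (lk g.iv b)) (g.cj a b)

def nzm (X : ℕ) : ℕ := rnz 15 g.O g.L X

def zm (X : ℕ) : ℕ := Nat.xor g.O (rnz 15 g.O g.L X)

def msk (s : PM) : ℕ := Nat.lor (g.nzm s.tab) 1

def full (s : PM) : Bool := Nat.beq (g.msk s) g.O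

/-- zero at `s` iff `s a = b s` -/
def tw (a b : ℕ) : ℕ := Nat.xor (g.c a) (g.r b)

noncomputable def ind (V : ℕ) : Bool := ne (g.nzm V) g.O

noncomputable def dbl (s : PM) (a b : ℕ) : PM :=
  PL.rec (motive := fun _ => PL → ℕ → ℕ → PM) (fun el t it => ⟨.cons a b s.gs, el, t, it⟩)
    (fun h k _ ih el t it => ih (.cons (lk (g.r a) h) (lk (g.r b) k) el)
      (Nat.lor t (pt (lk (g.r b) k) (lk (g.r a) h))) (Nat.lor it (pt (lk (g.r a) h) (lk (g.r b) k))))
    s.el s.el s.tab s.itab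

noncomputable def scan (t a b : ℕ) (l : PL) (kf : ℕ → ℕ → PM) (kd : PM) : PM :=
  PL.rec kd (fun h k _ ih => iF (nz (lk t (g.cj a h))) ih (kf (g.cj a h) (g.cj b k))) l

end Gp

noncomputable def fin (s : PM) (a b : ℕ) (s' : PM) : PM := iF (mem s' a) ⟨.cons a b s.gs, s'.el, s'.tab, s'.itab⟩ s

namespace Gp

variable (g : Gp)

noncomputable def adF (fu : ℕ) : PM → ℕ → ℕ → PM :=
  Nat.rec (fun s _ _ => s) (fun _ ih s a b => iF (mem s a) s
    (g.scan s.tab a b s.gs (fun x y => fin s a b (ih (ih s x y) a b))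
      (iF (mem s (g.q a)) (g.dbl s a b) (fin s a b (ih (ih s (g.q a) (g.q b)) a b))))) fu

/-- adds the pair `(a, b)` -/
noncomputable def ad (s : PM) (a b : ℕ) : PM := g.adF 10 s a b

/-- adds the elements `φ 0, …, φ (k - 1)` to a subgroup -/
noncomputable def adS (K : PM) (φ : ℕ → ℕ) (k : ℕ) : PM := Nat.rec K (fun i s => g.ad s (φ i) (φ i)) k

noncomputable def mkS1 (w : ℕ) : PM := g.adS s0 (g.by' w) (len1 w)

noncomputable def mkS0 (w : ℕ) : PM := g.mkS1 (sl w)

/-- the subgroup generated by the bytes of `w` -/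
noncomputable def mkS (w : ℕ) : PM := frc w g.mkS0

noncomputable def mkP1 (w : ℕ) : PM :=
  Nat.rec s0 (fun i s => g.ad s (g.by' w (Nat.add i i)) (g.by' w (Nat.succ (Nat.add i i)))) (len2 w)

noncomputable def mkP0 (w : ℕ) : PM := g.mkP1 (sl w)

/-- the partial map generated by the pairs of bytes of `w` -/
noncomputable def mkP (w : ℕ) : PM := frc w g.mkP0

/-- `r` normalizes `P`, lies outside, its square lies inside -/
noncomputable def okN0 (P : PM) (r : ℕ) : Bool :=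
  an (nt (mem P r)) (an (mem P (g.q r)) (allP P.gs fun a _ => mem P (g.cj r a)))

noncomputable def okN (P : PM) (r : ℕ) : Bool := frc r (g.okN0 P)

/-- the generators of `K` normalize `W` -/
noncomputable def nrm (K W : PM) : Bool := allP K.gs fun s _ => allP W.gs fun a _ => mem W (g.cj s a)

/-- the commutators of the generators of `K` lie in `W` -/
noncomputable def cms (K W : PM) : Bool := allP K.gs fun a _ => allP K.gs fun b _ => mem W (g.cm a b)

/-- `K` contains the normalizer of `T` -/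
noncomputable def nrmz (T K : PM) : Bool :=
  allN g.N fun s => orr (mem K s) (nt (allP T.gs fun a _ => mem T (g.cj s a)))

/-! ### invariant tables -/

noncomputable def cls (pm V c : ℕ) : ℕ := Nat.land (g.zm (Nat.xor V (Nat.mul c g.O))) pm

noncomputable def sta (pm V op c a : ℕ) : ℕ :=
  iF (nz op) (Nat.mod (Nat.land (iF (Nat.beq op 1) (g.nzm (g.tw a a)) (g.zm (Nat.xor g.sq (Nat.mul a g.O))))
    (iF (nz c) (g.cls pm V c) pm)) 65535) (lk V (g.q a))

noncomputable def rnd (P : PM) (V op c mu : ℕ) : ℕ :=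
  foP P.el fun a _ => pt (Nat.succ (Nat.mod (Nat.add (Nat.mul (lk V a) mu) (g.sta (g.msk P) V op c a)) 65521)) a

/-- the program has four bytes per round -/
noncomputable def fvt (P : PM) (pr : ℕ) : ℕ :=
  Nat.rec 0 (fun i V => g.rnd P V (lk pr (Nat.shiftLeft i 2)) (lk pr (Nat.add (Nat.shiftLeft i 2) 1))
    (lk pr (Nat.add (Nat.shiftLeft i 2) 2))) (Nat.succ (Nat.shiftRight (Nat.log2 pr) 6))

/-! ### automorphisms -/

noncomputable def atr (B j : ℕ) : ℕ → ℕ :=
  Nat.rec (fun y => y)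
    (fun j ih y => Nat.add (ih y) (Nat.shiftLeft (ih (lk (g.c (g.by' B j)) y)) (Nat.shiftLeft 16 j))) j

noncomputable def aut0 (B : ℕ) : ℕ := g.atr (sl B) g.n 0

/-- the table of the endomorphism with the images `B` of the generators -/
noncomputable def aut (B : ℕ) : ℕ := frc B g.aut0

noncomputable def autOK0 (B : ℕ) : Bool :=
  an (Nat.beq (Nat.lor (g.nzm (g.aut0 B)) 1) g.O) (allN g.n fun k =>
    an (Nat.beq (g.q (g.by' (sl B) k)) (lk (g.aut0 B) (lk g.R (tri k k)))) (allN k fun j =>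
      Nat.beq (g.m (g.by' (sl B) j) (g.by' (sl B) k)) (g.m (g.by' (sl B) k) (lk (g.aut0 B) (lk g.R (tri k j))))))

noncomputable def autOK (B : ℕ) : Bool := frc B g.autOK0

/-! ### words -/

noncomputable def tbL (L : List ℕ) (j : ℕ) : ℕ :=
  iF (nz (Nat.land j 1)) (g.mkP (nth 0 L (Nat.pred (Nat.shiftRight (Nat.pred j) 1)))).tab
    (g.mkP (nth 0 L (Nat.pred (Nat.shiftRight (Nat.pred j) 1)))).itab

/-- letters: `0` identity, `1`, `2` the current map and its inverse, `3 + 2 i`, `4 + 2 i` map `i` and its inverse -/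
noncomputable def tb (L : List ℕ) (st : PM) (j : ℕ) : ℕ :=
  iF (Nat.ble j 2) (iF (nz j) (iF (Nat.beq j 1) st.tab st.itab) g.id) (frc j (g.tbL L))

noncomputable def evk (L : List ℕ) (st : PM) (w k a : ℕ) : ℕ :=
  Nat.rec a (fun i r => lk (g.tb L st (lk w (Nat.succ (Nat.add i i)))) (g.cj0 (g.by' w (Nat.add i i)) r)) k

noncomputable def ev (L : List ℕ) (st : PM) (w a : ℕ) : ℕ := g.evk L st w (len2 w) a

noncomputable def der1 (L : List ℕ) (st : PM) (β : ℕ → ℕ) (s w : ℕ) : Bool :=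
  allP (g.mkP s).gs fun a b => an (nz (β b)) (Nat.beq (g.ev L st w (β a)) (β b))

/-- the maps of the list, transported by `β`, are words in `st` and `L` -/
noncomputable def der (L : List ℕ) (st : PM) (β : ℕ → ℕ) (Lt : List ℕ) : ℕ → Bool :=
  List.rec (fun _ => true) (fun s _ ih ws =>
    an (g.der1 L st β s (Nat.land (Nat.shiftRight ws 16) (Pc.msk (Nat.shiftLeft (lk ws 0) 5))))
      (ih (Nat.shiftRight ws (Nat.add 16 (Nat.shiftLeft (lk ws 0) 5))))) Lt

end Gp

/-- the known maps, the invariant data and the automorphisms of a node -/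
structure Nx where
  L : List ℕ
  cuts : List (List ℕ)
  kd : ℕ
  W : PM
  z : ℕ
  pw : ℕ
  pool : ℕ
  cl : List PM

/-- the data of a search -/
structure Cx where
  nx : Nx
  P : PM
  ntg : ℕ
  fv : ℕ
  t0 : ℕ
  ph : ℕ
  ex : Bool
  cu : ℕ → ℕ → Bool

def Nx.en (x : Nx) (j : ℕ) : ℕ := Nat.land (Nat.shiftRight x.pool (Nat.mul x.pw j)) (msk x.pw)

def Nx.bb (x : Nx) (j : ℕ) : ℕ := Nat.land (x.en j) 95780971304118053647396689196894323976171195136475135

namespace Gp

variable (g : Gp)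

noncomputable def good0 (x : Nx) (j : ℕ) : Bool :=
  an (g.autOK (x.bb j)) (g.der x.L s0 (lk (g.aut (x.bb j))) x.L (Nat.shiftRight (x.en j) 176))

noncomputable def good (x : Nx) (j : ℕ) : Bool := iF (nz j) (frc j (g.good0 x)) true

/-- the automorphism with the code `w` -/
noncomputable def gam (x : Nx) (w a : ℕ) : ℕ :=
  g.cj0 (g.by' w 0) (iF (nz (Nat.shiftRight w 32)) (lk (g.aut (x.bb (Nat.shiftRight w 32))) a) a)

noncomputable def stN (x : Nx) (w : ℕ) : Bool :=
  an (g.good x (Nat.shiftRight w 32)) (an (allP x.W.gs fun a _ => mem x.W (g.gam x w a))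
    (an (mem x.W (g.m (g.i x.z) (g.gam x w x.z))) (allL x.cl fun X => inC x.cl X fun Y a => mem Y (g.gam x w a))))

noncomputable def stC (cx : Cx) (w : ℕ) : Bool :=
  an (g.stN cx.nx w) (an (allP cx.P.gs fun a _ => mem cx.P (g.gam cx.nx w a))
    (an (mem cx.P (g.m cx.t0 (g.i (g.gam cx.nx w cx.t0)))) (orr (Nat.beq (g.by' w 1) 0) cx.ex)))

noncomputable def dyn (cx : Cx) (t : ℕ) (st : PM) (x w : ℕ) : Bool :=
  an (g.stC cx w) (an (Nat.beq (g.gam cx.nx w t) t) (an (Nat.beq (g.gam cx.nx w x) x) (allP st.gs fun a b =>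
    an (nz (g.gam cx.nx w b)) (Nat.beq (lk st.tab (g.gam cx.nx w a)) (g.cj0 (g.by' w 1) (g.gam cx.nx w b))))))

noncomputable def sym1 (cx : Cx) (t : ℕ) (st : PM) (x M y w : ℕ) : ℕ :=
  iF (an (nz (lk M y)) (g.dyn cx t st x w)) (Nat.lor M (pt 1 (g.cj0 (g.by' w 1) (g.gam cx.nx w y)))) M

noncomputable def syms (cx : Cx) (t : ℕ) (st : PM) (x gv sy M k : ℕ) : ℕ :=
  Nat.rec M (fun i M => frc (Nat.land (Nat.shiftRight gv (Nat.shiftLeft (lk sy (Nat.succ (Nat.add i i))) 6)) 18446744073709551615)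
    (g.sym1 cx t st x M (g.by' sy (Nat.add i i)))) k

/-- nonzero at the excluded images of `x` -/
noncomputable def flt (cx : Cx) (st : PM) (x : ℕ) : ℕ :=
  Nat.lor (Nat.xor cx.fv (Nat.mul (lk cx.fv x) g.O))
    (Nat.lor (iF (mem st (g.q x)) (Nat.xor g.sq (Nat.mul (lk st.tab (g.q x)) g.O)) 0)
      (foP st.gs fun h k => iF (nz (lk st.tab (g.cj x h))) (g.tw k (lk st.tab (g.cj x h))) 0))

noncomputable def cov (cx : Cx) (st : PM) (x M : ℕ) : Bool :=
  an (nz (lk cx.P.tab x)) (an (Nat.beq (lk st.tab x) 0)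
    (Nat.beq (Nat.lor (Nat.lor (g.nzm (Nat.lor (g.flt cx st x) st.itab)) 1) (Nat.lor cx.ntg M)) g.O))

noncomputable def cos (P : PM) (t : ℕ) : ℕ := foP P.el fun a _ => pt 1 (g.m t a)

noncomputable def covT (cx : Cx) (M : ℕ) : Bool :=
  an (nz cx.t0) (Nat.beq (Nat.land (g.cos cx.P cx.t0) M) (g.cos cx.P cx.t0))

/-! ### leaves -/

noncomputable def lfCf (cx : Cx) (t : ℕ) (φ ψ : ℕ → ℕ) (md a b : ℕ) : Bool :=
  an (nz (φ a)) (iF (nz md)
    (iF (Nat.beq md 1)
      (an (nz t) (orr (an (nz (φ (g.cj t (φ a)))) (ne (φ (g.cj t (φ a))) (g.cj t a)))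
        (an (nz (ψ (g.cj t a))) (ne (ψ (g.cj t a)) (g.cj t (φ a))))))
      (ne (lk cx.fv a) (lk cx.fv (φ a))))
    (an (nz (φ b)) (iF (nz (g.m a b))
      (orr (Nat.beq (g.m (φ a) (φ b)) 0) (an (nz (φ (g.m a b))) (ne (φ (g.m a b)) (g.m (φ a) (φ b)))))
      (nz (g.m (φ a) (φ b))))))

noncomputable def odd (q : ℕ → ℕ) (J u xs : ℕ) : Bool :=
  an (ne (Nat.land (g.nzm (foN (len1 xs) fun i => iF (nz (itr q u (itr q u (g.by' xs i))))
      (g.tw (g.by' xs i) (itr q u (itr q u (g.by' xs i)))) g.O)) J) J)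
    (Nat.beq (Nat.land (g.nzm (foN (len1 xs) fun i => g.tw (g.by' xs i) (itr q u (g.by' xs i)))) J) J)

noncomputable def lfOd (cx : Cx) (φ ψ : ℕ → ℕ) (r s u xs : ℕ) : Bool :=
  an (nt cx.ex) (an (nz u) (iF (nz r)
    (an (nz cx.t0) (an (g.okN cx.P r) (an (g.okN cx.P s) (g.odd (fun a => g.cj r (φ (g.cj s (ψ a)))) (g.msk cx.P) u xs))))
    (iF (nz s) (g.odd φ (g.msk cx.P) u xs)
      (an (nz (itr φ u (itr φ u xs))) (an (Nat.beq (itr φ u (itr φ u xs)) xs) (ne (itr φ u xs) xs))))))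

/-- the leaves which only look up values -/
noncomputable def lfK (cx : Cx) (t : ℕ) (φ ψ : ℕ → ℕ) (d : ℕ) : Bool :=
  iF (Nat.ble (lk d 0) 2) (g.lfCf cx t φ ψ (lk d 0) (lk d 1) (lk d 2))
    (g.lfOd cx φ ψ (g.by' d 1) (g.by' d 2) (lk d 3) (Nat.shiftRight d 64))

/-- the partial map `φ` extended to the coset of `x` by `x ↦ y` -/
noncomputable def ext (φ : ℕ → ℕ) (x y a : ℕ) : ℕ :=
  iF (orr (nz (φ a)) (Nat.beq a 0)) (φ a)
    (iF (nz (φ (g.m (g.i x) a))) (g.m y (φ (g.m (g.i x) a))) (iF (Nat.beq a x) y 0))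

noncomputable def kil (cx : Cx) (t : ℕ) (st : PM) (x y fl d : ℕ) : Bool :=
  an (nz x) (iF (an (nz fl) (nz t))
    (g.lfK cx t (g.ext (g.ext (lk st.tab) x y) (g.cj t y) (g.cj t x)) (g.ext (g.ext (lk st.itab) y x) (g.cj t x) (g.cj t y)) d)
    (g.lfK cx t (g.ext (lk st.tab) x y) (g.ext (lk st.itab) y x) d))

noncomputable def clA (cx : Cx) (a : ℕ) : ℕ := g.cls (g.msk cx.P) cx.fv (lk cx.fv a)

noncomputable def clIn (cx : Cx) (K : PM) (a : ℕ) : Bool := Nat.beq (Nat.land (g.clA cx a) (g.msk K)) (g.clA cx a)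

/-- the image of `a` lies in `K` -/
noncomputable def imIn (cx : Cx) (st K : PM) (a : ℕ) : Bool :=
  iF (nz (lk st.tab a)) (mem K (lk st.tab a)) (g.clIn cx K a)

noncomputable def lfMc (cx : Cx) (st : PM) (w : ℕ) : Bool :=
  an (nt cx.ex) (iF (Nat.beq cx.nx.kd 1)
    (an (Nat.beq (g.mkS w).tab cx.nx.W.tab) (allP (g.mkS w).gs fun a _ => an (mem cx.P a) (g.imIn cx st cx.nx.W a)))
    (iF (Nat.beq cx.nx.kd 2)
      (an (Nat.beq (g.mkS w).tab cx.P.tab) (allP (g.mkS w).gs fun a _ =>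
        iF (nz (lk st.tab a)) (mem cx.nx.W (g.m (g.i a) (lk st.tab a)))
          (orr (g.clIn cx cx.nx.W a) (Nat.beq (Nat.land (g.clA cx a) (g.msk cx.nx.W)) 0))))
      (iF (Nat.beq cx.nx.kd 5)
        (allL cx.nx.cl fun X => orr (nt (allP X.gs fun a _ => mem cx.P a)) (inC cx.nx.cl X (g.imIn cx st)))
        (an (Nat.beq cx.nx.kd 3) (an (nz (lk st.tab w)) (an (mem cx.nx.W (g.m (g.i cx.nx.z) w))
          (mem cx.nx.W (g.m (g.i cx.nx.z) (lk st.tab w)))))))))

/-- the subgroup generated by the squares of the bytes of `w` -/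
noncomputable def sqS (w : ℕ) : PM := g.adS s0 (fun i => g.q (g.by' w i)) (len1 w)

noncomputable def urS (cx : Cx) (st K K' : PM) (md x : ℕ) : Bool :=
  iF (Nat.beq md 1)
    (an (nz cx.t0) (allP K'.gs fun a _ => an (orr (mem K a) (an (mem cx.P a) (g.imIn cx st K' a))) (mem K (g.cm cx.t0 a))))
    (allP K'.gs fun a _ => orr (mem K a) (an (mem cx.P a) (an (g.imIn cx st K' a)
      (iF (nz md) (an (nz (lk st.tab a)) (mem K (g.m (lk st.tab a) (g.i a)))) (Nat.beq a x)))))

/-- a step: one byte `length + 16 * mode`, then the new generators -/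
noncomputable def urG (cx : Cx) (st : PM) (fu : ℕ) : PM → ℕ → Bool :=
  Nat.rec (fun _ _ => false) (fun _ ih K ch => iF (nz ch)
    (an (g.urS cx st K (g.adS K (g.by' (Nat.shiftRight ch 16)) (Nat.land ch 15)) (Nat.land (Nat.shiftRight ch 4) 15)
        (g.by' ch 1))
      (ih (g.adS K (g.by' (Nat.shiftRight ch 16)) (Nat.land ch 15))
        (Nat.shiftRight ch (Nat.shiftLeft (Nat.succ (Nat.land ch 15)) 4))))
    (allP cx.P.gs fun a _ => mem K a)) fu

noncomputable def phOK (P : PM) (w : ℕ) : Bool := allN (len1 w) fun i => mem P (g.by' w i)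

noncomputable def lfUr (cx : Cx) (st : PM) (ch : ℕ) : Bool :=
  an (nt cx.ex) (an (g.phOK cx.P cx.ph) (g.urG cx st 10 (g.sqS cx.ph) ch))

noncomputable def psi (T : PM) (φ : ℕ → ℕ) : PM := PL.rec s0 (fun a _ _ ih => g.ad ih a (φ a)) T.gs

noncomputable def v1c (T K : PM) (φ : ℕ → ℕ) : Bool :=
  an (Nat.beq (g.nzm (foP T.gs fun x _ => g.tw x (φ x))) g.O)
    (an (g.ind (foP T.gs fun x _ => iF (nz (φ (φ x))) (g.tw x (φ (φ x))) g.O))
      (allP K.gs fun s _ => g.ind (foP T.gs fun x _ => iF (nz (φ (g.cj s x))) (g.tw (φ x) (φ (g.cj s x))) g.O)))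

noncomputable def lfV1 (cx : Cx) (st T K : PM) (w k : ℕ) : Bool :=
  an (orr (g.full K) (an (orr (an (nz cx.t0) (Nat.beq T.tab cx.P.tab)) (an (Nat.beq cx.nx.kd 6) (Nat.beq T.tab cx.nx.W.tab)))
      (g.nrmz T K)))
    (an (nz k) (an (allP T.gs fun a _ => nz (lk T.tab (g.ev cx.nx.L st w a)))
      (g.v1c T K (itr (lk (g.psi T (g.ev cx.nx.L st w)).tab) k))))

noncomputable def lfIn (cx : Cx) (st : PM) (w : ℕ) : Bool :=
  an (nt cx.ex) (allP cx.P.gs fun a _ => an (nz (lk st.tab a)) (Nat.beq (g.ev cx.nx.L s0 w a) (lk st.tab a)))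

noncomputable def lfRef (cx : Cx) (st : PM) (k B ws : ℕ) : Bool :=
  an (Nat.blt k cx.nx.cuts.length) (an (g.autOK B) (g.der cx.nx.L st (lk (g.aut B)) (nth [] cx.nx.cuts k) ws))

noncomputable def lfCut (cx : Cx) (t : ℕ) (st : PM) (w : ℕ) : Bool :=
  an (cx.cu t w) (allP (g.mkP w).gs fun a b => an (nz b) (Nat.beq (lk st.tab a) b))

end Gp

/-- certificates of a search -/
inductive Ct
  | nil
  | cons (y fl : ℕ) (sub rest : Ct)
  | br (x gv sy : ℕ) (kids : Ct)
  | kil (y fl d : ℕ) (rest : Ct)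
  | lf (d : ℕ)
  | mc (w : ℕ)
  | ur (ch : ℕ)
  | v1 (T K w k : ℕ)
  | ine (w : ℕ)
  | ref (k B ws : ℕ)
  | cut (w : ℕ)

/-- a leaf -/
def lf (p : ℕ → PM → Bool) : (ℕ → PM → Bool) × (ℕ → PM → ℕ → ℕ) := (p, fun _ _ _ => 0)

namespace Gp

variable (g : Gp)

noncomputable def nxt (t : ℕ) (st : PM) (x y fl : ℕ) : PM :=
  iF (an (nz fl) (nz t)) (g.ad (g.ad st x y) (g.cj t y) (g.cj t x)) (g.ad st x y)

/-- the checker of a search -/
noncomputable def go (cx : Cx) (c : Ct) : (ℕ → PM → Bool) × (ℕ → PM → ℕ → ℕ) :=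
  Ct.rec (lf fun _ _ => false)
    (fun y fl _ _ sub rest => (fun _ _ => false, fun t st x => Nat.lor
      (iF (iF (nz x) (sub.1 t (g.nxt t st x y fl)) (sub.1 y (g.ad st (g.q y) (g.q y)))) (pt 1 y) 0) (rest.2 t st x)))
    (fun x gv sy _ kids => lf fun t st => iF (nz x) (g.cov cx st x (g.syms cx t st x gv sy (kids.2 t st x) (len2 sy)))
      (g.covT cx (g.syms cx t st x gv sy (kids.2 t st x) (len2 sy))))
    (fun y fl d _ rest => (fun _ _ => false, fun t st x =>
      Nat.lor (iF (g.kil cx t st x y fl d) (pt 1 y) 0) (rest.2 t st x)))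
    (fun d => lf fun t st => g.lfK cx t (lk st.tab) (lk st.itab) d)
    (fun w => lf fun _ st => g.lfMc cx st w)
    (fun ch => lf fun _ st => g.lfUr cx st ch)
    (fun T K w k => lf fun _ st => g.lfV1 cx st (g.mkS T) (g.mkS K) w k)
    (fun w => lf fun _ st => g.lfIn cx st w)
    (fun k B ws => lf fun _ st => g.lfRef cx st k B ws)
    (fun w => lf fun t st => g.lfCut cx t st w) c

end Gp

/-- a candidate for an essential subgroup: generators, program of the invariant table, roots, coset -/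
structure Ds where
  P : ℕ
  pr : ℕ
  ph : ℕ
  t0 : ℕ

/-- a node -/
structure Nd where
  L : List ℕ
  kd : ℕ
  W : ℕ
  z : ℕ
  a1 : ℕ
  a2 : ℕ
  pw : ℕ
  pool : ℕ
  top : Ct
  ps : Ct
  cl : List ℕ
  ex : Ct

namespace Gp

variable (g : Gp)

noncomputable def fvD (d : Ds) : ℕ := g.fvt (g.mkS d.P) d.pr

noncomputable def ntD (d : Ds) : ℕ := Nat.xor g.O (g.msk (g.mkS d.P))

noncomputable def cxP (x : Nx) (cu : ℕ → ℕ → ℕ → Bool) (d : Ds) : Cx :=
  ⟨x, g.mkS d.P, g.ntD d, g.fvD d, g.by' d.t0 0, d.ph, false, cu d.P⟩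

noncomputable def srch (x : Nx) (cu : ℕ → ℕ → ℕ → Bool) (d : Ds) (c : Ct) : Bool :=
  an (g.okN (g.mkS d.P) (g.by' d.t0 0)) ((g.go (g.cxP x cu d) c).1 0 s0)

/-- the image of an earlier candidate -/
noncomputable def symP (x : Nx) (d : Ds) (P w : ℕ) : Bool :=
  an (g.stN x w) (Nat.beq (foP (g.mkS P).el fun a _ => pt 1 (g.gam x w a)) (g.msk (g.mkS d.P)))

/-- all candidates of the list -/
noncomputable def covP (x : Nx) (cu : ℕ → ℕ → ℕ → Bool) (AL : List Ds) : Ct → List ℕ → Bool :=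
  List.rec (fun _ _ => true) (fun d _ ih c dn => Ct.rec false
    (fun w j sub rest _ _ => an (iF (nz w) (an (Nat.blt j dn.length) (frc w (g.symP x d (nth 0 dn j)))) (g.srch x cu d sub))
      (ih rest (d.P :: dn)))
    (fun _ _ _ _ _ => false) (fun _ _ _ _ _ => false) (fun _ => false) (fun _ => false) (fun _ => false)
    (fun _ _ _ _ => false) (fun _ => false) (fun _ _ _ => false) (fun _ => false) c) AL

/-- the subgroup generated by commutators -/
noncomputable def cmS (w : ℕ) : PM :=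
  g.adS s0 (fun i => g.cm (g.by' w (Nat.add i i)) (g.by' w (Nat.succ (Nat.add i i)))) (len2 w)

noncomputable def nxOf (cuts : List (List ℕ)) (nd : Nd) : Nx :=
  ⟨nd.L, cuts, nd.kd, iF (Nat.beq nd.kd 3) (g.cmS nd.W) (iF (Nat.ble 4 nd.kd) s0 (g.mkS nd.W)),
    iF (Nat.beq nd.kd 3) (g.by' nd.z 0) 0, nd.pw, nd.pool,
    iF (Nat.beq nd.kd 5) (List.rec [] (fun a _ ih => g.mkS a :: ih) nd.cl) []⟩

/-- the context of the extension in a node of the kind `5`: the subgroup `W` is fully normalized -/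
noncomputable def nxE (cuts : List (List ℕ)) (nd : Nd) : Nx := ⟨nd.L, cuts, 6, g.mkS nd.W, 0, nd.pw, nd.pool, []⟩

noncomputable def cxE (x : Nx) (cu : ℕ → ℕ → ℕ → Bool) (R : ℕ) : Cx := ⟨x, g.mkS R, 0, 0, 0, 0, true, cu R⟩

noncomputable def extOK (T h R : PM) : Bool :=
  an (allP h.gs fun a b => an (mem T b) (mem R a)) (an (allP T.gs fun a _ => nz (lk h.itab a))
    (allP R.gs fun s _ => g.ind (foP h.gs fun a b => iF (nz (lk h.tab (g.cj s a))) (g.tw b (lk h.tab (g.cj s a))) g.O)))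

/-- the search for the extension of the map `a1` to `z` -/
noncomputable def extC (cu : ℕ → ℕ → ℕ → Bool) (nd : Nd) (x : Nx) (c : Ct) : Bool :=
  an (g.extOK (g.mkS nd.W) (g.mkP nd.a1) (g.mkS nd.z)) (an (g.der nd.L s0 (lk g.id) [nd.a1] nd.a2)
    ((g.go (g.cxE x cu nd.z) c).1 0 (g.mkP nd.a1)))

/-- the order of the normalizer -/
noncomputable def nN (X : PM) : ℕ := cnN g.N fun s => allP X.gs fun a _ => mem X (g.cj s a)

/-- the table `t` maps `X` into a member of the list, if it is defined on `X` -/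
noncomputable def _root_.Cfsg.Agent.FS.NB.clM (cl : List PM) (X : PM) (t : ℕ) : Bool :=
  orr (nt (allP X.gs fun a _ => orr (nz (lk t a)) (Nat.beq a 0))) (inC cl X fun Y a => mem Y (lk t a))

/-- The list of subgroups of one order is closed under conjugation and under the known maps and their inverses;
it contains `T`, which has the largest normalizer. -/
noncomputable def clsOK (S : PM) (x : Nx) (T : PM) : Bool :=
  an (exL x.cl fun Y => Nat.beq Y.tab T.tab) (frc (g.nN T) fun k => frc (Nat.mod (g.msk T) 65535) fun o => allL x.cl fun X =>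
    an (Nat.beq (Nat.mod (g.msk X) 65535) o) (an (Nat.ble (g.nN X) k)
      (an (allP S.gs fun s _ => inC x.cl X fun Y a => mem Y (g.cj s a))
        (allL x.L fun s => an (clM x.cl X (g.mkP s).tab) (clM x.cl X (g.mkP s).itab)))))

noncomputable def kdOK (Xs : List (List ℕ)) (S : PM) (x : Nx) (a : ℕ) : Bool :=
  an (g.nrm S x.W) (iF (nz x.kd) (iF (Nat.beq x.kd 1)
      (an (nz x.W.tab) (allL x.L fun s => allP x.W.gs fun a _ => nz (lk x.W.tab (lk (g.mkP s).tab a))))
      (an (g.cms S x.W) (iF (Nat.beq x.kd 2)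
        (an (nt (mem x.W (g.by' a 0))) (an (Nat.beq (Nat.lor (g.msk x.W) (g.cos x.W (g.by' a 0))) g.O)
          (allL x.L fun s => allP (g.mkP s).gs fun a b => mem x.W (g.m (g.i a) b))))
        (an (Nat.beq x.kd 3) (an (nt (mem x.W x.z)) (an (Nat.beq (g.q x.z) 0) (an (Nat.beq (g.r x.z) (g.c x.z))
          (allL x.L fun s => orr (nt (g.full (g.mkP s))) (mem x.W (g.m (g.i x.z) (lk (g.mkP s).tab x.z)))))))))))
    (an (Nat.blt a Xs.length) (List.beq (nth [] Xs a) x.L)))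

noncomputable def node1 (Xs : List (List ℕ)) (AL : List Ds) (dT : Ds) (cu : ℕ → ℕ → ℕ → Bool) (nd : Nd) (x : Nx) : Bool :=
  iF (Nat.beq nd.kd 4) (an (g.nrm (g.mkS dT.P) (g.mkS nd.W)) (g.extC cu nd x nd.top))
    (an (iF (Nat.beq nd.kd 5)
        (an (g.clsOK (g.mkS dT.P) x (g.mkS nd.W)) (g.extC (fun _ _ _ => false) nd (g.nxE x.cuts nd) nd.ex))
        (g.kdOK Xs (g.mkS dT.P) x nd.a1))
      (an ((g.go (g.cxP x cu dT) nd.top).1 0 s0) (orr (Nat.beq nd.kd 3) (g.covP x cu AL nd.ps []))))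

/-- the checker of a node; the kinds `2`, `3` need the flag `pf` (perfect systems) -/
noncomputable def node (pf : Bool) (Xs : List (List ℕ)) (AL : List Ds) (dT : Ds) (cu : ℕ → ℕ → ℕ → Bool)
    (cuts : List (List ℕ)) (nd : Nd) : Bool :=
  an (orr pf (an (ne nd.kd 2) (ne nd.kd 3)))
    (an (g.full (g.mkS dT.P)) (an (Nat.beq dT.t0 0) (g.node1 Xs AL dT cu nd (g.nxOf cuts nd))))

/-- the nodes in the order of their completion -/
noncomputable def nodes (pf : Bool) (Xs : List (List ℕ)) (AL : List Ds) (dT : Ds) (l : List Nd) :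
    List (List ℕ) → Bool :=
  List.rec (fun _ => true)
    (fun nd _ ih cuts => an (g.node pf Xs AL dT (fun _ _ _ => false) cuts nd) (ih (nd.L :: cuts))) l

/-! ### the candidates -/

/-- the elements commuting with `u` modulo the elements below `2 ^ i` -/
noncomputable def cmi (i u : ℕ) : ℕ :=
  g.zm (Nat.land (g.tw u u) (Nat.mul (Nat.sub 65536 (Nat.shiftLeft 1 i)) g.O))

noncomputable def lev1 (CA : List Ds) (i u h j : ℕ) : Bool :=
  orr (nz (Nat.shiftRight (g.q u) i)) (orr (Nat.beq (g.cmi i u) g.O) (an (Nat.blt j CA.length)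
    (Nat.beq (frc (g.cj0 (g.i h) u) (g.cmi i)) (frc j fun j => g.msk (g.mkS (nth ⟨0, 0, 0, 0⟩ CA j).P)))))

/-- the entry of `(i, v)` has the index `2 ^ (n - i) + v` -/
noncomputable def lev (CA : List Ds) (C : ℕ) : Bool :=
  allN g.n fun i => allN (Nat.shiftRight g.N i) fun v => orr (Nat.ble v 1)
    (frc (Nat.shiftLeft v i) fun u => g.lev1 CA i u (g.by' C (Nat.shiftLeft (Nat.add (Nat.shiftRight g.N i) v) 1))
      (lk C (Nat.succ (Nat.shiftLeft (Nat.add (Nat.shiftRight g.N i) v) 1))))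

/-- every essential subgroup is conjugate to a member of `AL` -/
noncomputable def alv (AL DL : List Ds) (cu : ℕ → ℕ → ℕ → Bool) (C pool : ℕ) (ps : Ct) : Bool :=
  an (g.lev (AL ++ DL) C) (g.covP ⟨[], [], 0, s0, 0, 176, pool, []⟩ cu DL ps [])

/-- checks of the data -/
noncomputable def ok : Bool :=
  an (Nat.ble g.n 9) (an (allN g.N fun a => an (Nat.blt (g.i a) g.N) (Nat.beq (g.m a (g.i a)) 0))
    (allN g.n fun k => an (Nat.blt (lk g.R (tri k k)) (Nat.shiftLeft 1 k))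
      (allN k fun j => Nat.beq (Nat.shiftRight (lk g.R (tri k j)) j) 1)))

end Gp

def row (T s ms a : ℕ) : ℕ := Nat.land (Nat.shiftRight T (Nat.mul s a)) ms

noncomputable def rowf (T s ms a : ℕ) : ℕ := frc a (row T s ms)

/-- the transposed table -/
noncomputable def trn (n T : ℕ) : ℕ :=
  Nat.rec T (fun i Y => frc Y fun Y => frc (Nat.add i 4) fun j => frc (Nat.add j n) fun l =>
    swp (Nat.add (Nat.add n n) 4) j l Y) n

noncomputable def vec (N : ℕ) (φ : ℕ → ℕ) : ℕ := foN N fun a => pt (φ a) a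

/-- the tables of the presentation `R`; `I` is the table of the inverses -/
noncomputable def mkG (n R I : ℕ) (k : Gp → Bool) : Bool :=
  frc (tab 0 n 16 R) fun T => frc (trn n T) fun T' => frc (Nat.shiftLeft 1 n) fun N => frc (Nat.shiftLeft N 4) fun s =>
  frc (msk s) fun ms => frc (ones 16 n) fun O => frc (Nat.mul 32767 O) fun L => frc (Nat.pred N) fun mk =>
  frc (vec N fun a => lk (rowf T s ms a) a) fun sq => frc (vec N fun a => a) fun id =>
  k ⟨n, N, mk, R, rowf T s ms, rowf T' s ms, I, sq, id, O, L⟩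

/-- the data shared by the nodes of a group -/
structure Gh where
  n : ℕ
  R : ℕ
  I : ℕ
  Xs : List (List ℕ)
  AL : List Ds
  dT : Ds
  pf : Bool

/-- the candidates -/
noncomputable def Gh.alv (c : Gh) (DL : List Ds) (C pool : ℕ) (ps : Ct) : Bool :=
  mkG c.n c.R c.I fun g => an g.ok (g.alv c.AL DL (fun _ _ _ => false) C pool ps)

/-- some nodes -/
noncomputable def Gh.nodes (c : Gh) (l : List Nd) (cuts : List (List ℕ)) : Bool :=
  mkG c.n c.R c.I fun g => g.nodes c.pf c.Xs c.AL c.dT l cuts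

/-- a group without systems, one node -/
noncomputable def Gh.one (c : Gh) (DL : List Ds) (C pool : ℕ) (ps : Ct) (nd : Nd) : Bool :=
  mkG c.n c.R c.I fun g => an g.ok (an (g.alv c.AL DL (fun _ _ _ => false) C pool ps)
    (an (List.beq nd.L []) (g.node c.pf [] c.AL c.dT (fun _ _ _ => false) [] nd)))

end Cfsg.Agent.FS.NB
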