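import Cfsg.Agent.FS.N.B.Def

/-!
# The certificate checker of part B for S5288, second version: affine symmetries, leaves which use the filter, cuts
-/

set_option autoImplicit false

namespace Cfsg.Agent.FS.NB

open Cfsg.Agent.FS.Pc Cfsg.Agent.FS.Sw

namespace Gp

variable (g : Gp)

/-- `x⁻¹ γ(x)` -/
noncomputable def df (cx : Cx) (x w : ℕ) : ℕ := g.m (g.i x) (g.gam cx.nx w x)

noncomputable def dyn2 (cx : Cx) (t : ℕ) (st : PM) (x w : ℕ) : Bool :=
  an (g.stC cx w) (an (Nat.beq (g.gam cx.nx w t) t) (an (mem st (g.df cx x w)) (allP st.gs fun a b =>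
    an (nz (g.gam cx.nx w b)) (Nat.beq (lk st.tab (g.gam cx.nx w a)) (g.cj0 (g.by' w 1) (g.gam cx.nx w b))))))

noncomputable def sym2 (cx : Cx) (t : ℕ) (st : PM) (x M y w : ℕ) : ℕ :=
  iF (an (nz (lk M y)) (g.dyn2 cx t st x w))
    (Nat.lor M (pt 1 (g.m (g.cj0 (g.by' w 1) (g.gam cx.nx w y)) (g.i (lk st.tab (g.df cx x w)))))) M

noncomputable def syms2 (cx : Cx) (t : ℕ) (st : PM) (x gv sy M k : ℕ) : ℕ :=
  Nat.rec M (fun i M => frc (Nat.land (Nat.shiftRight gv (Nat.shiftLeft (lk sy (Nat.succ (Nat.add i i))) 6)) 18446744073709551615)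
    (g.sym2 cx t st x M (g.by' sy (Nat.add i i)))) k

/-- the image of `a` lies in the mask `M` -/
noncomputable def dyI (cx : Cx) (st : PM) (M a : ℕ) : Bool :=
  iF (nz (lk st.tab a)) (nz (lk M (lk st.tab a))) (g.cov cx st a M)

noncomputable def lfM2 (cx : Cx) (st : PM) (w : ℕ) : Bool :=
  iF (Nat.beq cx.nx.kd 1)
    (an (Nat.beq (g.mkS w).tab cx.nx.W.tab) (allP (g.mkS w).gs fun a _ => g.dyI cx st (g.msk cx.nx.W) a))
    (iF (Nat.beq cx.nx.kd 2)
      (an (Nat.beq (g.mkS w).tab cx.P.tab) (allP (g.mkS w).gs fun a _ =>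
        g.dyI cx st (iF (mem cx.nx.W a) (g.msk cx.nx.W) (Nat.xor g.O (g.msk cx.nx.W))) a))
      (an (Nat.beq cx.nx.kd 3) (an (mem cx.nx.W (g.m (g.i cx.nx.z) w)) (g.dyI cx st (g.cos cx.nx.W cx.nx.z) w))))

/-- the unknown map agrees with a word modulo the squares -/
noncomputable def lfI2 (cx : Cx) (st T : PM) (w : ℕ) : Bool :=
  an (g.full cx.P) (an (g.full T) (allP T.gs fun a _ =>
    an (nz (g.ev cx.nx.L s0 w a)) (g.dyI cx st (g.cos (g.sqS cx.ph) (g.ev cx.nx.L s0 w a)) a)))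

/-- the unknown map exchanges two subgroups -/
noncomputable def lfSw (cx : Cx) (st T K : PM) : Bool :=
  an (nt (allP T.gs fun a _ => mem K a))
    (an (allP T.gs fun a _ => g.dyI cx st (g.msk K) a) (allP K.gs fun a _ => g.dyI cx st (g.msk T) a))

noncomputable def lfD (cx : Cx) (st : PM) (T K w : ℕ) : Bool :=
  an (nt cx.ex) (iF (nz K) (iF (Nat.beq K 1) (g.lfI2 cx st (g.mkS T) w) (g.lfSw cx st (g.mkS T) (g.mkS K)))
    (g.lfM2 cx st T))

/-- the checker of a search -/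
noncomputable def go2 (cx : Cx) (c : Ct) : (ℕ → PM → Bool) × (ℕ → PM → ℕ → ℕ) :=
  Ct.rec (lf fun _ _ => false)
    (fun y fl _ _ sub rest => (fun _ _ => false, fun t st x => Nat.lor
      (iF (iF (nz x) (sub.1 t (g.nxt t st x y fl)) (sub.1 y (g.ad st (g.q y) (g.q y)))) (pt 1 y) 0) (rest.2 t st x)))
    (fun x gv sy _ kids => lf fun t st => iF (nz x) (g.cov cx st x (g.syms2 cx t st x gv sy (kids.2 t st x) (len2 sy)))
      (g.covT cx (g.syms2 cx t st x gv sy (kids.2 t st x) (len2 sy))))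
    (fun y fl d _ rest => (fun _ _ => false, fun t st x =>
      Nat.lor (iF (g.kil cx t st x y fl d) (pt 1 y) 0) (rest.2 t st x)))
    (fun d => lf fun t st => g.lfK cx t (lk st.tab) (lk st.itab) d)
    (fun w => lf fun _ st => g.lfMc cx st w)
    (fun ch => lf fun _ st => g.lfUr cx st ch)
    (fun T K w k => lf fun _ st => iF (nz k) (g.lfV1 cx st (g.mkS T) (g.mkS K) w k) (g.lfD cx st T K w))
    (fun w => lf fun _ st => g.lfIn cx st w)
    (fun k B ws => lf fun _ st => g.lfRef cx st k B ws)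
    (fun w => lf fun t st => g.lfCut cx t st w) c

noncomputable def srch2 (x : Nx) (cu : ℕ → ℕ → ℕ → Bool) (d : Ds) (c : Ct) : Bool :=
  an (g.okN (g.mkS d.P) (g.by' d.t0 0)) ((g.go2 (g.cxP x cu d) c).1 0 s0)

noncomputable def covP2 (x : Nx) (cu : ℕ → ℕ → ℕ → Bool) (AL : List Ds) : Ct → List ℕ → Bool :=
  List.rec (fun _ _ => true) (fun d _ ih c dn => Ct.rec false
    (fun w j sub rest _ _ => an (iF (nz w) (an (Nat.blt j dn.length) (frc w (g.symP x d (nth 0 dn j)))) (g.srch2 x cu d sub))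
      (ih rest (d.P :: dn)))
    (fun _ _ _ _ _ => false) (fun _ _ _ _ _ => false) (fun _ => false) (fun _ => false) (fun _ => false)
    (fun _ _ _ _ => false) (fun _ => false) (fun _ _ _ => false) (fun _ => false) c) AL

noncomputable def extC2 (cu : ℕ → ℕ → ℕ → Bool) (nd : Nd) (x : Nx) (c : Ct) : Bool :=
  an (g.extOK (g.mkS nd.W) (g.mkP nd.a1) (g.mkS nd.z)) (an (g.der nd.L s0 (lk g.id) [nd.a1] nd.a2)
    ((g.go2 (g.cxE x cu nd.z) c).1 0 (g.mkP nd.a1)))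

noncomputable def nod1 (Xs : List (List ℕ)) (AL : List Ds) (dT : Ds) (cu : ℕ → ℕ → ℕ → Bool) (nd : Nd) (x : Nx) : Bool :=
  iF (Nat.beq nd.kd 4) (an (g.nrm (g.mkS dT.P) (g.mkS nd.W)) (g.extC2 (fun _ _ _ => false) nd x nd.top))
    (an (iF (Nat.beq nd.kd 5)
        (an (g.clsOK (g.mkS dT.P) x (g.mkS nd.W)) (g.extC2 (fun _ _ _ => false) nd (g.nxE x.cuts nd) nd.ex))
        (g.kdOK Xs (g.mkS dT.P) x nd.a1))
      (an ((g.go2 (g.cxP x cu dT) nd.top).1 0 s0) (orr (Nat.beq nd.kd 3) (g.covP2 x cu AL nd.ps []))))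

/-- the checker of a node -/
noncomputable def nod2 (pf : Bool) (Xs : List (List ℕ)) (AL : List Ds) (dT : Ds) (cu : ℕ → ℕ → ℕ → Bool)
    (cuts : List (List ℕ)) (nd : Nd) : Bool :=
  an (orr pf (an (ne nd.kd 2) (ne nd.kd 3)))
    (an (g.full (g.mkS dT.P)) (an (Nat.beq dT.t0 0) (g.nod1 Xs AL dT cu nd (g.nxOf cuts nd))))

end Gp

/-- the list of the parts which are checked elsewhere -/
noncomputable def cuL (l : List (ℕ × ℕ × ℕ)) (P t w : ℕ) : Bool :=
  exL l fun p => an (Nat.beq p.2.2 w) (an (Nat.beq p.2.1 t) (Nat.beq p.1 P))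

/-- the node with the given searches -/
def Nd.wt (h : Nd) (top ps ex : Ct) : Nd := ⟨h.L, h.kd, h.W, h.z, h.a1, h.a2, h.pw, h.pool, top, ps, h.cl, ex⟩

/-- one node -/
noncomputable def Gh.nod (c : Gh) (cuts : List (List ℕ)) (l : List (ℕ × ℕ × ℕ)) (nd : Nd) : Bool :=
  mkG c.n c.R c.I fun g => g.nod2 c.pf c.Xs c.AL c.dT (cuL l) cuts nd

/-- a part of a search -/
noncomputable def Gh.part (c : Gh) (cuts : List (List ℕ)) (l : List (ℕ × ℕ × ℕ)) (h : Nd) (P t w : ℕ) (ct : Ct) : Bool :=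
  mkG c.n c.R c.I fun g => an (Nat.blt t g.N) (allL (c.dT :: c.AL) fun d =>
    orr (ne d.P P) ((g.go2 (g.cxP (g.nxOf cuts h) (cuL l) d) ct).1 t (g.mkP w)))

end Cfsg.Agent.FS.NB
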